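import Mathlib
import Cfsg.Agent.Lib.Helper51.TIH.Defs

/-!
# TIH (S4118), package [HALL]

A TI subgroup `H` which is a Hall subgroup of its normalizer `N` is a Hall subgroup of `G`:
for a prime `p` dividing `|H|` and `|G:H|`, a Sylow `p`-subgroup `S` of `H` (order `p^n`) has
`p^(n+1) ∣ |N_G(S)|`, and `N_G(S) ≤ N` by TI, but `p^(n+1) ∤ |N|`.
-/

set_option autoImplicit false

namespace Cfsg.Agent.Lib.Helper45.TIH

open Cfsg.Agent.Lib.Helper51.TIH

universe u

theorem pkgHall : PkgHall.{u} := by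
  intro G _ _ H hTI hcop
  by_contra hnot
  obtain ⟨p, hp, hpH, hpI⟩ := Nat.Prime.not_coprime_iff_dvd.1 hnot
  have hfact : Fact p.Prime := ⟨hp⟩
  obtain ⟨n, hn⟩ : ∃ n, n = (Nat.card H).factorization p := ⟨_, rfl⟩
  have hHpos : Nat.card H ≠ 0 := Nat.card_pos.ne'
  have hn1 : 1 ≤ n := by
    rw [hn]
    exact (hp.dvd_iff_one_le_factorization hHpos).1 hpH
  obtain ⟨P⟩ : Nonempty (Sylow p H) := inferInstance
  obtain ⟨S, hS⟩ : ∃ S : Subgroup G, S = (P : Subgroup H).map H.subtype := ⟨_, rfl⟩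
  have hScard : Nat.card S = p ^ n := by
    rw [hS, Subgroup.card_map_of_injective H.subtype_injective, hn]
    exact P.card_eq_multiplicity
  have hSH : S ≤ H := by
    rw [hS]
    exact Subgroup.map_subtype_le _
  have hdvd : p ^ (n + 1) ∣ Nat.card G := by
    rw [← Subgroup.card_mul_index H, pow_succ]
    exact Nat.mul_dvd_mul (by rw [hn]; exact Nat.ordProj_dvd _ p) hpI
  have h1 := Sylow.prime_pow_dvd_card_normalizer hdvd hScard
  have hSne : ∃ x ∈ S, x ≠ 1 := by
    by_contra hall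
    push Not at hall
    have hbot : S = ⊥ := by
      rw [eq_bot_iff]
      intro x hx
      exact Subgroup.mem_bot.2 (hall x hx)
    rw [hbot, Subgroup.card_bot] at hScard
    have h2 : 1 < p ^ n := Nat.one_lt_pow (by omega) hp.one_lt
    omega
  obtain ⟨x, hxS, hx1⟩ := hSne
  have hle : Subgroup.normalizer (S : Set G) ≤ Subgroup.normalizer (H : Set G) := by
    intro g hg
    by_contra hgN
    have h2 : g * x * g⁻¹ ∈ S := (Subgroup.mem_normalizer_iff.1 hg x).1 hxS
    exact hx1 (hTI g hgN x (hSH hxS) (hSH h2))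
  have h3 : p ^ (n + 1) ∣ Nat.card (Subgroup.normalizer (H : Set G)) :=
    Dvd.dvd.trans h1 (Subgroup.card_dvd_of_le hle)
  have h4 : Nat.card (Subgroup.normalizer (H : Set G)) =
      Nat.card H * (H.subgroupOf (Subgroup.normalizer (H : Set G))).index := by
    rw [← Subgroup.card_mul_index (H.subgroupOf (Subgroup.normalizer (H : Set G)))]
    congr 1
    have hHN : H ≤ Subgroup.normalizer (H : Set G) := Subgroup.le_normalizer
    exact Nat.card_congr (Subgroup.subgroupOfEquivOfLe hHN).toEquiv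
  rw [h4] at h3
  have h5 : (p ^ (n + 1)).Coprime (H.subgroupOf (Subgroup.normalizer (H : Set G))).index := by
    apply Nat.Coprime.pow_left
    rw [Nat.Prime.coprime_iff_not_dvd hp]
    intro h6
    have h7 := Nat.dvd_gcd hpH h6
    rw [Nat.Coprime.gcd_eq_one hcop] at h7
    exact hp.ne_one (Nat.dvd_one.1 h7)
  have h7 : p ^ (n + 1) ∣ Nat.card H := h5.dvd_of_dvd_mul_right h3
  rw [hn] at h7
  exact Nat.pow_succ_factorization_not_dvd hHpos hp h7

end Cfsg.Agent.Lib.Helper45.TIH
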