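import Mathlib
import Cfsg.Agent.Lib.Helper51.TIH.Defs

/-!
# TIH (S4118), package [ON]

`G = O N_G(H)`: with `F ⊴ G`, `O < F`, `F/O` a `π(H)`-group and `H` a Hall subgroup of `G`,
`F = O (H ∩ F)`; a Sylow `q`-subgroup `S ≠ 1` of `H ∩ F` (`q ∣ |F:O|`) is Sylow in `F`, so
`G = N_G(S) F` (Frattini) and `N_G(S) ≤ N_G(H)` by TI.
-/

set_option autoImplicit false

namespace Cfsg.Agent.Lib.Helper45.TIH

open Cfsg.Agent.Lib.Helper51.TIH

universe u

theorem tih_card_mul_relIndex {G : Type u} [Group G] (A B : Subgroup G) (hAB : A ≤ B) :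
    Nat.card A * A.relIndex B = Nat.card B := by
  have h := Subgroup.relIndex_mul_relIndex ⊥ A B bot_le hAB
  rw [Subgroup.relIndex_bot_left, Subgroup.relIndex_bot_left] at h
  exact h

/-- `|F : H ∩ F| = |HF : H|` divides `|G : H|` for `F` normal. -/
theorem tih_relIndex_dvd_index {G : Type u} [Group G] [Finite G] (H F : Subgroup G) [F.Normal] :
    H.relIndex F ∣ H.index := by
  have h1 := tih_card_mul_relIndex (H ⊓ F) F inf_le_right
  have h2 := tih_card_mul_relIndex (H ⊓ F) H inf_le_left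
  have h3 := tih_card_mul_relIndex F (H ⊔ F) le_sup_right
  have h4 := tih_card_mul_relIndex H (H ⊔ F) le_sup_left
  rw [Subgroup.inf_relIndex_right] at h1
  rw [Subgroup.inf_relIndex_left] at h2
  rw [Subgroup.relIndex_sup_right] at h3
  have hHpos : 0 < Nat.card H := Nat.card_pos
  have h5 : H.relIndex (H ⊔ F) = H.relIndex F := by
    apply Nat.eq_of_mul_eq_mul_left hHpos
    rw [h4, ← h3, ← h1, ← h2]
    ring
  rw [← h5]
  exact Subgroup.relIndex_dvd_index_of_le le_sup_left

theorem pkgON : PkgON.{u} := by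
  intro G _ _ H O hTI hHall hOn hOcop hF
  obtain ⟨F, hFn, hOF, hne, hprimes⟩ := hF
  obtain ⟨m, hm⟩ : ∃ m, m = O.relIndex F := ⟨_, rfl⟩
  have hm1 : m ≠ 1 := by
    intro h
    rw [hm, Subgroup.relIndex_eq_one] at h
    exact hne (le_antisymm hOF h)
  obtain ⟨q, hq, hqm⟩ := Nat.exists_prime_and_dvd hm1
  have hfact : Fact q.Prime := ⟨hq⟩
  have hqH : q ∣ Nat.card H := hprimes q hq (by rw [← hm]; exact hqm)
  obtain ⟨K, hK⟩ : ∃ K : Subgroup G, K = H ⊓ F := ⟨_, rfl⟩
  have hKH : K ≤ H := by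
    rw [hK]
    exact inf_le_left
  have hKF : K ≤ F := by
    rw [hK]
    exact inf_le_right
  obtain ⟨i, hi⟩ : ∃ i, i = H.relIndex F := ⟨_, rfl⟩
  have hi_dvd : i ∣ H.index := by
    rw [hi]
    exact tih_relIndex_dvd_index H F
  have hFK : Nat.card K * i = Nat.card F := by
    have h := tih_card_mul_relIndex K F hKF
    rw [hK, Subgroup.inf_relIndex_right, ← hi, ← hK] at h
    exact h
  have hFO : Nat.card O * m = Nat.card F := by
    rw [hm]
    exact tih_card_mul_relIndex O F hOF
  have hmi : Nat.Coprime m i := by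
    apply Nat.coprime_of_dvd
    intro k hk hkm hki
    have h1 : k ∣ Nat.card H := hprimes k hk (by rw [← hm]; exact hkm)
    have h2 : k ∣ H.index := Dvd.dvd.trans hki hi_dvd
    have h3 := Nat.dvd_gcd h1 h2
    rw [Nat.Coprime.gcd_eq_one hHall] at h3
    exact hk.ne_one (Nat.dvd_one.1 h3)
  have hmK : m ∣ Nat.card K := by
    apply hmi.dvd_of_dvd_mul_right
    rw [hFK, ← hFO]
    exact Dvd.intro_left _ rfl
  have hOK : O ⊓ K = ⊥ := by
    exact (Subgroup.disjoint_of_coprime_natCard
      (Nat.Coprime.coprime_dvd_right (Subgroup.card_dvd_of_le hKH) hOcop)).eq_bot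
  have hOKcard : Nat.card (O ⊔ K : Subgroup G) = Nat.card O * Nat.card K := by
    have h1 := tih_card_mul_relIndex O (O ⊔ K) le_sup_left
    rw [Subgroup.relIndex_sup_left, ← Subgroup.inf_relIndex_right, hOK,
      Subgroup.relIndex_bot_left] at h1
    exact h1.symm
  have hOKF : O ⊔ K = F := by
    have hle : O ⊔ K ≤ F := sup_le hOF hKF
    apply Subgroup.eq_of_le_of_card_ge hle
    rw [hOKcard, ← hFO]
    obtain ⟨c, hc⟩ := hmK
    rw [hc]
    have hKpos : 0 < Nat.card K := Nat.card_pos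
    have hc1 : 1 ≤ c := by
      rcases Nat.eq_zero_or_pos c with h | h
      · rw [h, mul_zero] at hc
        omega
      · exact h
    exact Nat.mul_le_mul_left _ (Nat.le_mul_of_pos_right m hc1)
  -- a Sylow `q`-subgroup of `K`
  obtain ⟨T⟩ : Nonempty (Sylow q K) := inferInstance
  obtain ⟨S, hS⟩ : ∃ S : Subgroup G, S = (T : Subgroup K).map K.subtype := ⟨_, rfl⟩
  have hSK : S ≤ K := by
    rw [hS]
    exact Subgroup.map_subtype_le _
  have hScard : Nat.card S = q ^ (Nat.card K).factorization q := by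
    rw [hS, Subgroup.card_map_of_injective K.subtype_injective]
    exact T.card_eq_multiplicity
  have hqi : ¬ q ∣ i := by
    intro h
    have h3 := Nat.dvd_gcd hqH (Dvd.dvd.trans h hi_dvd)
    rw [Nat.Coprime.gcd_eq_one hHall] at h3
    exact hq.ne_one (Nat.dvd_one.1 h3)
  have hfac : (Nat.card F).factorization q = (Nat.card K).factorization q := by
    rw [← hFK, Nat.factorization_mul (Nat.card_pos.ne')
      (by intro h0; rw [h0] at hqi; exact hqi (dvd_zero q))]
    simp [Nat.factorization_eq_zero_of_not_dvd hqi]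
  have hSF : S ≤ F := le_trans hSK hKF
  have hSH : S ≤ H := le_trans hSK hKH
  have hcardP : Nat.card (S.subgroupOf F) = q ^ (Nat.card F).factorization q := by
    rw [hfac, ← hScard]
    exact Nat.card_congr (Subgroup.subgroupOfEquivOfLe hSF).toEquiv
  obtain ⟨P, hP⟩ : ∃ P : Sylow q F, (P : Subgroup F) = S.subgroupOf F :=
    ⟨Sylow.ofCard (S.subgroupOf F) hcardP, Sylow.coe_ofCard _ _⟩
  have hfrat := Sylow.normalizer_sup_eq_top P
  rw [hP, Subgroup.subgroupOf_map_subtype, inf_of_le_left hSF] at hfrat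
  have hqK : q ∣ Nat.card K := Dvd.dvd.trans hqm hmK
  have hSne : ∃ x ∈ S, x ≠ 1 := by
    by_contra hall
    push Not at hall
    have hbot : S = ⊥ := by
      rw [eq_bot_iff]
      intro x hx
      exact Subgroup.mem_bot.2 (hall x hx)
    rw [hbot, Subgroup.card_bot] at hScard
    have h1 : 1 ≤ (Nat.card K).factorization q :=
      (hq.dvd_iff_one_le_factorization Nat.card_pos.ne').1 hqK
    have h2 : 1 < q ^ (Nat.card K).factorization q := Nat.one_lt_pow (by omega) hq.one_lt
    omega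
  obtain ⟨x, hxS, hx1⟩ := hSne
  have hle : Subgroup.normalizer (S : Set G) ≤ Subgroup.normalizer (H : Set G) := by
    intro g hg
    by_contra hgN
    have h2 : g * x * g⁻¹ ∈ S := (Subgroup.mem_normalizer_iff.1 hg x).1 hxS
    exact hx1 (hTI g hgN x (hSH hxS) (hSH h2))
  rw [eq_top_iff, ← hfrat]
  apply sup_le
  · exact le_trans hle le_sup_right
  · rw [← hOKF]
    apply sup_le le_sup_left
    exact le_trans (le_trans hKH Subgroup.le_normalizer) le_sup_right

end Cfsg.Agent.Lib.Helper45.TIH
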